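import Mathlib

/-!
Families of abelian subgroups attached equivariantly to the points of a doubly transitive
action, some non-trivial element of which fixes a second point: distinct members meet trivially.
-/

set_option autoImplicit false

namespace CfsgLib.ONan48

open MulAction
open scoped _root_.Classical commutatorElement

/-- An equivariant family of elementary abelian subgroups fixing their point, none semiregular. -/
structure Fam (G X : Type*) [Group G] [MulAction G X] where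
  p : ℕ
  prime : p.Prime
  N : X → Subgroup G
  smul_self : ∀ u, ∀ a ∈ N u, a • u = u
  conj_mem : ∀ (g : G) (u : X), ∀ a ∈ N u, g * a * g⁻¹ ∈ N (g • u)
  comm : ∀ u, ∀ a ∈ N u, ∀ b ∈ N u, a * b = b * a
  pow_eq : ∀ u, ∀ a ∈ N u, a ^ p = 1
  nsr : ∀ u w : X, u ≠ w → ∃ a ∈ N u, a ≠ 1 ∧ a • w = w
  trans : ∀ u w u' w' : X, u ≠ w → u' ≠ w' → ∃ g : G, g • u = u' ∧ g • w = w'

namespace Fam

variable {G X : Type*} [Group G] [MulAction G X] (D : Fam G X)

/-- The elements of the member at `u` fixing `w`. -/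
def K (u w : X) : Subgroup G := D.N u ⊓ stabilizer G w

variable {D}

theorem mem_K {u w : X} {a : G} : a ∈ D.K u w ↔ a ∈ D.N u ∧ a • w = w := Iff.rfl

theorem K_le (u w : X) : D.K u w ≤ D.N u := inf_le_left

theorem conj_mem_fix {g : G} {u : X} (h : g • u = u) {a : G} (ha : a ∈ D.N u) :
    g * a * g⁻¹ ∈ D.N u := by
  simpa [h] using D.conj_mem g u a ha

theorem conj_mem_K (g : G) {u w : X} {a : G} (ha : a ∈ D.K u w) :
    g * a * g⁻¹ ∈ D.K (g • u) (g • w) :=
  ⟨D.conj_mem g u a ha.1, by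
    show (g * a * g⁻¹) • g • w = g • w
    rw [smul_smul, inv_mul_cancel_right, ← smul_smul, (mem_K.1 ha).2]⟩

theorem conj_mem_K' {g : G} {u w u' w' : X} (hu : g • u = u') (hw : g • w = w') {a : G}
    (ha : a ∈ D.K u w) : g * a * g⁻¹ ∈ D.K u' w' := hu ▸ hw ▸ conj_mem_K g ha

theorem card_le_of_conj [Finite G] {S T : Subgroup G} (g : G)
    (h : ∀ a ∈ S, g * a * g⁻¹ ∈ T) : Nat.card S ≤ Nat.card T :=
  Nat.card_le_card_of_injective (fun a : S => (⟨g * a * g⁻¹, h a a.2⟩ : T))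
    fun a b hab => Subtype.ext (mul_left_cancel (mul_right_cancel (congrArg Subtype.val hab)))

variable [Finite G]

theorem card_K_eq {u w u' w' : X} (h : u ≠ w) (h' : u' ≠ w') :
    Nat.card (D.K u w) = Nat.card (D.K u' w') := by
  obtain ⟨g, h1, h2⟩ := D.trans u w u' w' h h'
  obtain ⟨g', h3, h4⟩ := D.trans u' w' u w h' h
  exact le_antisymm (card_le_of_conj g fun a ha => conj_mem_K' h1 h2 ha)
    (card_le_of_conj g' fun a ha => conj_mem_K' h3 h4 ha)

theorem K_eq_of_le {u w u' w' : X} (h : u ≠ w) (h' : u' ≠ w') (hle : D.K u w ≤ D.K u' w') :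
    D.K u w = D.K u' w' :=
  Subgroup.eq_of_le_of_card_ge hle (card_K_eq h' h).le

theorem card_N_eq {u w : X} (h : u ≠ w) : Nat.card (D.N u) = Nat.card (D.N w) := by
  obtain ⟨g, h1, h2⟩ := D.trans u w w u h h.symm
  exact le_antisymm (card_le_of_conj g fun a ha => h1 ▸ D.conj_mem g u a ha)
    (card_le_of_conj g fun a ha => h2 ▸ D.conj_mem g w a ha)

theorem exists_ne_one_K {u w : X} (h : u ≠ w) : ∃ a ∈ D.K u w, a ≠ 1 :=
  let ⟨a, ha, ha1, haw⟩ := D.nsr u w h
  ⟨a, ⟨ha, haw⟩, ha1⟩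

theorem one_lt_card_K {u w : X} (h : u ≠ w) : 1 < Nat.card (D.K u w) := by
  rw [Subgroup.one_lt_card_iff_ne_bot]
  intro hbot
  obtain ⟨a, ha, ha1⟩ := exists_ne_one_K (D := D) h
  exact ha1 (Subgroup.mem_bot.1 (hbot ▸ ha))

variable [FaithfulSMul G X]

theorem exists_moved {u w : X} (h : u ≠ w) : ∃ a ∈ D.N u, a • w ≠ w := by
  by_contra hno
  push Not at hno
  obtain ⟨a, ha, ha1, -⟩ := D.nsr u w h
  refine ha1 (FaithfulSMul.eq_of_smul_eq_smul fun z : X => ?_)
  rw [one_smul]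
  by_cases hz : z = u
  · rw [hz, D.smul_self u a ha]
  obtain ⟨g, hgu, hgw⟩ := D.trans u w u z h (Ne.symm hz)
  have hg' : g⁻¹ • u = u := inv_smul_eq_iff.2 hgu.symm
  have h1 : g⁻¹ * a * g⁻¹⁻¹ ∈ D.N u := conj_mem_fix hg' ha
  have h2 := hno _ h1
  rwa [inv_inv, mul_smul, mul_smul, hgw, inv_smul_eq_iff, hgw] at h2

/-- Distinct members meet trivially. -/
theorem eq_one_of_mem {u w : X} (h : u ≠ w) {a : G} (ha : a ∈ D.N u) (ha' : a ∈ D.N w) :
    a = 1 := by
  have hle : ∀ x y x' y' : X, x ≠ y → x' ≠ y' → D.N x ⊓ D.N y ≤ D.N x' ⊓ D.N y' →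
      D.N x ⊓ D.N y = D.N x' ⊓ D.N y' := by
    intro x y x' y' hxy hxy' hle
    obtain ⟨g, h1, h2⟩ := D.trans x' y' x y hxy' hxy
    exact Subgroup.eq_of_le_of_card_ge hle (card_le_of_conj g fun e he =>
      ⟨h1 ▸ D.conj_mem g x' e he.1, h2 ▸ D.conj_mem g y' e he.2⟩)
  have hmove : ∀ x y z : X, ∀ c ∈ D.N x, D.N x ⊓ D.N y ≤ D.N z →
      D.N x ⊓ D.N y ≤ D.N (c • z) := by
    intro x y z c hc hz e he
    have := D.conj_mem c z e (hz he)
    rwa [D.comm x c hc e he.1, mul_inv_cancel_right] at this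
  refine FaithfulSMul.eq_of_smul_eq_smul fun z : X => ?_
  rw [one_smul]
  by_cases hz : D.N u ⊓ D.N w ≤ D.N z
  · exact D.smul_self z a (hz ⟨ha, ha'⟩)
  have hzu : z ≠ u := fun e => hz (e ▸ inf_le_left)
  have hzw : z ≠ w := fun e => hz (e ▸ inf_le_right)
  by_contra hne
  have h1 : D.N u ⊓ D.N z = D.N z ⊓ D.N (a • z) :=
    hle u z z (a • z) hzu.symm (Ne.symm hne) (le_inf inf_le_right (hmove u z z a ha inf_le_right))
  have h2 : D.N w ⊓ D.N z = D.N z ⊓ D.N (a • z) :=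
    hle w z z (a • z) hzw.symm (Ne.symm hne) (le_inf inf_le_right (hmove w z z a ha' inf_le_right))
  have h3 : D.N u ⊓ D.N z = D.N u ⊓ D.N w :=
    hle u z u w hzu.symm h (le_inf inf_le_left (h1.trans h2.symm ▸ inf_le_left))
  exact hz (h3 ▸ inf_le_right)

theorem smul_eq_of_comm {u : X} {a g : G} (ha : a ∈ D.N u) (ha1 : a ≠ 1) (h : g * a = a * g) :
    g • u = u := by
  by_contra hne
  have := D.conj_mem g u a ha
  rw [h, mul_inv_cancel_right] at this
  exact ha1 (eq_one_of_mem hne this ha)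

theorem K_comm {u w : X} {n m : G} (hn : n ∈ D.K u w) (hm : m ∈ D.K w u) : n * m = m * n := by
  by_cases h : u = w
  · subst h; exact D.comm u n hn.1 m hm.1
  refine commutatorElement_eq_one_iff_mul_comm.1 (eq_one_of_mem (D := D) h ?_ ?_)
  · rw [commutatorElement_def, show n * m * n⁻¹ * m⁻¹ = n * (m * n⁻¹ * m⁻¹) by group]
    exact mul_mem hn.1 (conj_mem_fix (mem_K.1 hm).2 (inv_mem hn.1))
  · rw [commutatorElement_def]
    exact mul_mem (conj_mem_fix (mem_K.1 hn).2 hm.1) (inv_mem hm.1)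

theorem mem_K_of_comm {u w : X} {n b : G} (hn : n ∈ D.N u) (hn1 : n ≠ 1) (hb : b ∈ D.N w)
    (h : b * n = n * b) : b ∈ D.K w u := mem_K.2 ⟨hb, smul_eq_of_comm hn hn1 h⟩

omit [Finite G] [FaithfulSMul G X] in
theorem smul_eq_iff_of_comm {a n : G} (h : n * a = a * n) (w : X) :
    n • a • w = a • w ↔ n • w = w := by
  rw [← mul_smul, h, mul_smul, smul_left_cancel_iff]

omit [Finite G] [FaithfulSMul G X] in
theorem K_smul {u : X} {a : G} (ha : a ∈ D.N u) (w : X) : D.K u (a • w) = D.K u w := by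
  ext n
  rw [mem_K, mem_K]
  exact ⟨fun h => ⟨h.1, (smul_eq_iff_of_comm (D.comm u n h.1 a ha) w).1 h.2⟩,
    fun h => ⟨h.1, (smul_eq_iff_of_comm (D.comm u n h.1 a ha) w).2 h.2⟩⟩

theorem isPGroup (u : X) (S : Subgroup G) (hS : S ≤ D.N u) : IsPGroup D.p S := fun s =>
  ⟨1, Subtype.ext (by simpa using D.pow_eq u s (hS s.2))⟩

end Fam

end CfsgLib.ONan48
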