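import Mathlib
import Cfsg.Agent.ONan48.Fam

/-!
The commutator of an element of `K x y` with an element of the member at `y` lies in `K y x`.
-/

set_option autoImplicit false

namespace CfsgLib.ONan48

open MulAction
open scoped _root_.Classical commutatorElement

/-- A `p`-group acting on an abelian `p`-group fixes a non-trivial coset of an invariant proper
subgroup. -/
theorem exists_commutator_mem {G : Type*} [Group G] [Finite G] {p : ℕ} (hp : p.Prime)
    {B C K : Subgroup G} (hCB : C ≤ B) (hne : ¬ B ≤ C) (hK : IsPGroup p K) (hB : IsPGroup p B)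
    (hcomm : ∀ a ∈ B, ∀ b ∈ B, a * b = b * a)
    (hKB : ∀ k ∈ K, ∀ b ∈ B, k * b * k⁻¹ ∈ B) (hKC : ∀ k ∈ K, ∀ c ∈ C, k * c * k⁻¹ ∈ C) :
    ∃ b ∈ B, b ∉ C ∧ ∀ k ∈ K, ⁅k, b⁆ ∈ C := by
  haveI := Fact.mk hp
  let act : K → ↥B ⧸ C.subgroupOf B → ↥B ⧸ C.subgroupOf B := fun k =>
    Quotient.map' (fun b => ⟨k * b * (k : G)⁻¹, hKB k k.2 b b.2⟩) fun a b h => by
      rw [QuotientGroup.leftRel_apply, Subgroup.mem_subgroupOf] at h ⊢
      have h' := hKC k k.2 _ h
      simp only [Subgroup.coe_mul, Subgroup.coe_inv] at h' ⊢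
      convert h' using 1
      group
  letI : MulAction K (↥B ⧸ C.subgroupOf B) :=
    { smul := act
      one_smul := fun q => QuotientGroup.induction_on q fun b =>
        congrArg QuotientGroup.mk (Subtype.ext (by simp))
      mul_smul := fun k l q => QuotientGroup.induction_on q fun b =>
        congrArg QuotientGroup.mk (Subtype.ext (by simp [mul_assoc])) }
  have hdvd : p ∣ Nat.card (↥B ⧸ C.subgroupOf B) := by
    obtain ⟨j, hj⟩ := hB.index (C.subgroupOf B)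
    rw [← Subgroup.index_eq_card, hj]
    refine dvd_pow_self p fun h0 => hne ?_
    rw [h0, pow_zero, Subgroup.index_eq_one, Subgroup.subgroupOf_eq_top] at hj
    exact hj
  have h1 : (QuotientGroup.mk (1 : B) : ↥B ⧸ C.subgroupOf B) ∈
      fixedPoints K (↥B ⧸ C.subgroupOf B) := fun k =>
    congrArg QuotientGroup.mk (Subtype.ext (by simp))
  obtain ⟨q, hq, hne1⟩ := hK.exists_fixed_point_of_prime_dvd_card_of_fixed_point _ hdvd h1
  obtain ⟨b, rfl⟩ := QuotientGroup.mk_surjective q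
  refine ⟨b, b.2, fun hb => hne1 (QuotientGroup.eq.2 ?_), fun k hk => ?_⟩
  · simpa [Subgroup.mem_subgroupOf] using hb
  have h := QuotientGroup.eq.1 (hq ⟨k, hk⟩).symm
  rw [Subgroup.mem_subgroupOf] at h
  simp only [Subgroup.coe_mul, Subgroup.coe_inv] at h
  rw [commutatorElement_def, hcomm _ (hKB k hk b b.2) _ (inv_mem b.2)]
  exact h

namespace Fam

variable {G X : Type*} [Group G] [Finite G] [MulAction G X] [FaithfulSMul G X] {D : Fam G X}

variable (D) in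
/-- The subgroup generated by `K u w` and `K w u`, which commute. -/
def W (u w : X) : Subgroup G where
  carrier := {g | ∃ k ∈ D.K u w, ∃ k' ∈ D.K w u, g = k * k'}
  one_mem' := ⟨1, one_mem _, 1, one_mem _, (mul_one 1).symm⟩
  mul_mem' := by
    rintro _ _ ⟨k, hk, k', hk', rfl⟩ ⟨l, hl, l', hl', rfl⟩
    refine ⟨k * l, mul_mem hk hl, k' * l', mul_mem hk' hl', ?_⟩
    rw [mul_assoc k, ← mul_assoc k', ← K_comm hl hk']
    group
  inv_mem' := by
    rintro _ ⟨k, hk, k', hk', rfl⟩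
    refine ⟨k⁻¹, inv_mem hk, k'⁻¹, inv_mem hk', ?_⟩
    rw [K_comm hk hk', mul_inv_rev]

theorem left_le_W (u w : X) : D.K u w ≤ D.W u w := fun k hk =>
  ⟨k, hk, 1, one_mem _, (mul_one k).symm⟩

theorem right_le_W (u w : X) : D.K w u ≤ D.W u w := fun k hk =>
  ⟨1, one_mem _, k, hk, (one_mul k).symm⟩

theorem W_comm {u w : X} {g h : G} (hg : g ∈ D.W u w) (hh : h ∈ D.W u w) : g * h = h * g := by
  obtain ⟨k, hk, k', hk', rfl⟩ := hg
  obtain ⟨l, hl, l', hl', rfl⟩ := hh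
  calc k * k' * (l * l') = k * (k' * l) * l' := by group
    _ = k * (l * k') * l' := by rw [K_comm hl hk']
    _ = (k * l) * (k' * l') := by group
    _ = (l * k) * (l' * k') := by rw [D.comm u k hk.1 l hl.1, D.comm w k' hk'.1 l' hl'.1]
    _ = l * (k * l') * k' := by group
    _ = l * (l' * k) * k' := by rw [K_comm hk hl']
    _ = l * l' * (k * k') := by group

theorem card_W {u w u' w' : X} (h : u ≠ w) (h' : u' ≠ w') :
    Nat.card (D.W u w) = Nat.card (D.W u' w') := by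
  have key : ∀ x y : X, x ≠ y →
      Nat.card (D.W x y) = Nat.card (D.K x y) * Nat.card (D.K y x) := by
    intro x y hxy
    rw [← Nat.card_prod]
    refine (Nat.card_eq_of_bijective
      (fun e : D.K x y × D.K y x => (⟨e.1 * e.2, _, e.1.2, _, e.2.2, rfl⟩ : D.W x y))
      ⟨?_, ?_⟩).symm
    · rintro ⟨a, a'⟩ ⟨b, b'⟩ hab
      have h1 : (a : G) * a' = b * b' := congrArg Subtype.val hab
      have h2 : (b : G)⁻¹ * a = b' * (a' : G)⁻¹ := by
        rw [eq_mul_inv_iff_mul_eq, mul_assoc, h1, inv_mul_cancel_left]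
      have h3 : (b : G)⁻¹ * a = 1 := eq_one_of_mem hxy (mul_mem (inv_mem b.2.1) a.2.1)
        (h2 ▸ mul_mem b'.2.1 (inv_mem a'.2.1))
      have h4 : (a : G) = b := (inv_mul_eq_one.1 h3).symm
      rw [h4] at h1
      exact Prod.ext (Subtype.ext h4) (Subtype.ext (mul_left_cancel h1))
    · rintro ⟨_, k, hk, k', hk', rfl⟩
      exact ⟨⟨⟨k, hk⟩, ⟨k', hk'⟩⟩, rfl⟩
  rw [key u w h, key u' w' h', card_K_eq h h', card_K_eq h.symm h'.symm]

/-- `[K x y, N y] ≤ K y x`. -/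
theorem comm_mem {x y : X} (hxy : x ≠ y) {n b : G} (hn : n ∈ D.K x y) (hb : b ∈ D.N y) :
    ⁅n, b⁆ ∈ D.K y x := by
  have hN : ∀ k ∈ D.K x y, ∀ a ∈ D.N y, ⁅k, a⁆ ∈ D.N y := fun k hk a ha => by
    rw [commutatorElement_def]
    exact mul_mem (conj_mem_fix (mem_K.1 hk).2 ha) (inv_mem ha)
  have hadd : ∀ k ∈ D.K x y, ∀ a ∈ D.N y, ∀ a' ∈ D.N y, ⁅k, a * a'⁆ = ⁅k, a⁆ * ⁅k, a'⁆ := by
    intro k hk a ha a' ha'
    calc ⁅k, a * a'⁆ = ⁅k, a⁆ * (a * ⁅k, a'⁆ * a⁻¹) := by simp [commutatorElement_def, mul_assoc]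
      _ = ⁅k, a⁆ * ⁅k, a'⁆ := by rw [D.comm y a ha _ (hN k hk a' ha'), mul_inv_cancel_right]
  let C : Subgroup G :=
    { carrier := {a | a ∈ D.N y ∧ ∀ k ∈ D.K x y, ⁅k, a⁆ ∈ D.K y x}
      one_mem' := ⟨one_mem _, fun k _ => by simp [commutatorElement_def]⟩
      mul_mem' := fun {a a'} ha ha' => ⟨mul_mem ha.1 ha'.1, fun k hk => by
        rw [hadd k hk a ha.1 a' ha'.1]; exact mul_mem (ha.2 k hk) (ha'.2 k hk)⟩
      inv_mem' := fun {a} ha => ⟨inv_mem ha.1, fun k hk => by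
        have h1 := hadd k hk a ha.1 a⁻¹ (inv_mem ha.1)
        rw [mul_inv_cancel, show ⁅k, (1 : G)⁆ = 1 by simp [commutatorElement_def]] at h1
        rw [eq_inv_of_mul_eq_one_right h1.symm]
        exact inv_mem (ha.2 k hk)⟩ }
  suffices D.N y ≤ C from (this hb).2 n hn
  clear hn hb n b
  by_contra hne
  have hKC : ∀ c ∈ D.K y x, c ∈ C := fun c hc => ⟨hc.1, fun k hk => by
    rw [commutatorElement_eq_one_iff_mul_comm.2 (K_comm hk hc)]; exact one_mem _⟩
  have hCinv : ∀ k ∈ D.K x y, ∀ c ∈ C, k * c * k⁻¹ ∈ C := by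
    intro k hk c hc
    have : k * c * k⁻¹ = ⁅k, c⁆ * c := by simp [commutatorElement_def]
    rw [this]
    exact mul_mem (hKC _ (hc.2 k hk)) hc
  obtain ⟨b, hb, hbC, hbstep⟩ := exists_commutator_mem D.prime (B := D.N y) (C := C) (fun c hc => hc.1) hne
    (isPGroup x _ (K_le x y)) (isPGroup y _ le_rfl) (D.comm y)
    (fun k hk a ha => conj_mem_fix (mem_K.1 hk).2 ha) hCinv
  obtain ⟨n, hn, hnb⟩ : ∃ n ∈ D.K x y, ⁅n, b⁆ ∉ D.K y x := by
    by_contra hall
    push Not at hall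
    exact hbC ⟨hb, hall⟩
  set c := ⁅n, b⁆ with hcdef
  have hcC : c ∈ C := hbstep n hn
  have hcN : c ∈ D.N y := hcC.1
  -- the points whose member meets `W` in at least `κ` elements
  let κ := Nat.card (D.K x y)
  let T : X → Prop := fun u => κ ≤ Nat.card (D.N u ⊓ D.W x y : Subgroup G)
  have hxT : T x := Subgroup.card_le_of_le (le_inf (K_le x y) (left_le_W x y))
  have hyT : T y := (card_K_eq hxy hxy.symm).le.trans
    (Subgroup.card_le_of_le (le_inf (K_le y x) (right_le_W x y)))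
  have hTfix : ∀ u, T u → ∀ w ∈ D.W x y, w • u = u := by
    intro u hu w hw
    obtain ⟨e, he, he1⟩ : ∃ e ∈ D.N u ⊓ D.W x y, e ≠ 1 :=
      (Subgroup.bot_or_exists_ne_one _).resolve_left
        ((Subgroup.one_lt_card_iff_ne_bot _).1 (lt_of_lt_of_le (one_lt_card_K hxy) hu))
    exact smul_eq_of_comm he.1 he1 (W_comm hw he.2)
  have hTK : ∀ u w, T u → T w → u ≠ w → D.N u ⊓ D.W x y = D.K u w := by
    intro u w hu hw huw
    have hle : D.N u ⊓ D.W x y ≤ D.K u w := fun e he => ⟨he.1, hTfix w hw e he.2⟩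
    exact Subgroup.eq_of_le_of_card_ge hle ((card_K_eq huw hxy).le.trans hu)
  have hTW : ∀ u w, T u → T w → u ≠ w → D.W u w = D.W x y := by
    intro u w hu hw huw
    refine Subgroup.eq_of_le_of_card_ge ?_ (card_W hxy huw).le
    rintro _ ⟨k, hk, k', hk', rfl⟩
    rw [← hTK u w hu hw huw] at hk
    rw [← hTK w u hw hu huw.symm] at hk'
    exact mul_mem hk.2 hk'.2
  have hTconj : ∀ g : G, (∀ e ∈ D.W x y, g * e * g⁻¹ ∈ D.W x y) → ∀ u, T u → T (g • u) :=
    fun g hg u hu => le_trans hu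
      (card_le_of_conj g fun e he => ⟨D.conj_mem g u e he.1, hg e he.2⟩)
  have hcnorm : ∀ e ∈ D.W x y, c * e * c⁻¹ ∈ D.W x y := by
    rintro _ ⟨k, hk, k', hk', rfl⟩
    have h1 : c * (k * k') * c⁻¹ = ⁅k, c⁆⁻¹ * k * (c * k' * c⁻¹) := by
      simp [commutatorElement_def, mul_assoc]
    rw [h1, D.comm y c hcN k' hk'.1, mul_inv_cancel_right]
    exact mul_mem (mul_mem (right_le_W x y (inv_mem (hcC.2 k hk))) (left_le_W x y hk))
      (right_le_W x y hk')
  have hcinv : ∀ e ∈ D.W x y, c⁻¹ * e * c⁻¹⁻¹ ∈ D.W x y := by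
    have hnorm : ∀ m : ℕ, ∀ e ∈ D.W x y, c ^ m * e * (c ^ m)⁻¹ ∈ D.W x y := by
      intro m
      induction m with
      | zero => intro e he; simpa using he
      | succ m ih =>
        intro e he
        have := hcnorm _ (ih e he)
        rw [pow_succ']
        simpa [mul_assoc] using this
    intro e he
    have hc : c ^ (D.p - 1) = c⁻¹ := by
      apply eq_inv_of_mul_eq_one_left
      rw [← pow_succ, Nat.sub_add_cancel D.prime.one_le, D.pow_eq y c hcN]
    exact hc ▸ hnorm (D.p - 1) e he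
  -- the conjugate of `n`
  have hn' : b * n * b⁻¹ = c⁻¹ * n := by simp [hcdef, commutatorElement_def, mul_assoc]
  have hn'K : b * n * b⁻¹ ∈ D.K (b • x) y := conj_mem_K' rfl (D.smul_self y b hb) hn
  have hzx : b • x ≠ x := fun h => hbC (hKC b ⟨hb, h⟩)
  have hzy : b • x ≠ y := fun h =>
    hxy (smul_left_cancel b (h.trans (D.smul_self y b hb).symm))
  have hn'T : ∀ u, T u → (b * n * b⁻¹) • u = c⁻¹ • u := fun u hu => by
    rw [hn', mul_smul, hTfix u hu n (left_le_W x y hn)]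
  have honly : ∀ u, T u → c⁻¹ • u = u → u = y := by
    intro u hu hfix
    by_contra huy
    have h1 : c ∈ D.K y u := ⟨hcN, (inv_smul_eq_iff.1 hfix).symm⟩
    rw [← hTK y u hyT hu (Ne.symm huy)] at h1
    rw [hTK y x hyT hxT hxy.symm] at h1
    exact hnb h1
  have hle : D.K (b • x) x ≤ D.K (b • x) y := by
    intro m hm
    have hcm : m * (b * n * b⁻¹) = (b * n * b⁻¹) * m := D.comm _ m hm.1 _ hn'K.1
    have hx2 : m • c⁻¹ • x = c⁻¹ • x := by
      rw [← hn'T x hxT, ← mul_smul, hcm, mul_smul, (mem_K.1 hm).2]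
    have hx2T : T (c⁻¹ • x) := hTconj _ hcinv x hxT
    have hx2ne : x ≠ c⁻¹ • x := fun h => hxy (honly x hxT h.symm)
    have hmnorm : ∀ e ∈ D.W x y, m * e * m⁻¹ ∈ D.W x y := by
      rw [← hTW x (c⁻¹ • x) hxT hx2T hx2ne]
      rintro _ ⟨k, hk, k', hk', rfl⟩
      have h1 : m * (k * k') * m⁻¹ = m * k * m⁻¹ * (m * k' * m⁻¹) := by group
      rw [h1]
      exact mul_mem (left_le_W _ _ (conj_mem_K' (mem_K.1 hm).2 hx2 hk))
        (right_le_W _ _ (conj_mem_K' hx2 (mem_K.1 hm).2 hk'))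
    have hmyT : T (m • y) := hTconj m hmnorm y hyT
    refine ⟨hm.1, honly _ hmyT ?_⟩
    rw [← hn'T _ hmyT, ← mul_smul, ← hcm, mul_smul, (mem_K.1 hn'K).2]
  rw [← K_eq_of_le hzx hzy hle] at hn'K
  exact hxy (honly x hxT (by rw [← hn'T x hxT]; exact (mem_K.1 hn'K).2))

theorem fix_orbit {x y : X} (hxy : x ≠ y) {n b : G} (hn : n ∈ D.K x y) (hb : b ∈ D.N y) :
    n • b • x = b • x := by
  have h := comm_mem hxy hn hb
  have h1 : n * b = b * ⁅n, b⁆ * n := by
    rw [D.comm y b hb _ h.1]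
    simp [commutatorElement_def]
  rw [← mul_smul, h1, mul_smul, mul_smul, D.smul_self x n hn.1, (mem_K.1 h).2]

theorem exists_symm {x y z : X} (hxy : x ≠ y) (hyz : y ≠ z) {n : G} (hn : n ∈ D.K x y)
    (hn1 : n ≠ 1) (hnz : n • z = z) : ∃ m ∈ D.K y x, m ≠ 1 ∧ m • z = z := by
  obtain ⟨k, hk, hk1⟩ := exists_ne_one_K (D := D) hyz
  by_cases h : ⁅n, k⁆ = 1
  · exact ⟨k, mem_K_of_comm hn.1 hn1 hk.1 (commutatorElement_eq_one_iff_mul_comm.1 h).symm, hk1,
      (mem_K.1 hk).2⟩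
  refine ⟨⁅n, k⁆, comm_mem hxy hn hk.1, h, ?_⟩
  have hn' : n⁻¹ • z = z := inv_smul_eq_iff.2 hnz.symm
  have hk' : k⁻¹ • z = z := inv_smul_eq_iff.2 (mem_K.1 hk).2.symm
  rw [commutatorElement_def, mul_smul, mul_smul, mul_smul, hk', hn', (mem_K.1 hk).2, hnz]

end Fam

end CfsgLib.ONan48
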