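import Mathlib
import Cfsg.Agent.ONan48.Fact

/-!
If a non-trivial element of the member at `x` fixes `y` and `z`, then it fixes the orbit of `z`
under the member at `y`.
-/

set_option autoImplicit false

namespace CfsgLib.ONan48

open MulAction
open scoped _root_.Classical commutatorElement

namespace Fam

variable {G X : Type*} [Group G] [Finite G] [MulAction G X] [FaithfulSMul G X] {D : Fam G X}

theorem comm_mem_N {u w : X} {j b : G} (hj : j • w = w) (hb : b ∈ D.N w) : ⁅j, b⁆ ∈ D.N w := by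
  rw [commutatorElement_def]
  exact mul_mem (conj_mem_fix hj hb) (inv_mem hb)

omit [Finite G] [FaithfulSMul G X] in
theorem smul_comm_fix {z : X} {g a : G} (hg : g • z = z) (ha : a • z = z) : ⁅g, a⁆ • z = z := by
  have hg' : g⁻¹ • z = z := inv_smul_eq_iff.2 hg.symm
  have ha' : a⁻¹ • z = z := inv_smul_eq_iff.2 ha.symm
  rw [commutatorElement_def, mul_smul, mul_smul, mul_smul, ha', hg', ha, hg]

theorem comm_mul_right {w : X} {j b b' : G} (hj : j • w = w) (hb : b ∈ D.N w)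
    (hb' : b' ∈ D.N w) : ⁅j, b * b'⁆ = ⁅j, b⁆ * ⁅j, b'⁆ := by
  calc ⁅j, b * b'⁆ = ⁅j, b⁆ * (b * ⁅j, b'⁆ * b⁻¹) := by simp [commutatorElement_def, mul_assoc]
    _ = ⁅j, b⁆ * ⁅j, b'⁆ := by
      rw [D.comm w b hb _ (comm_mem_N (u := w) hj hb'), mul_inv_cancel_right]

theorem comm_mul_left {u w : X} (h : u ≠ w) {j j' b : G} (hj : j ∈ D.K u w)
    (hj' : j' ∈ D.K u w) (hb : b ∈ D.N w) : ⁅j * j', b⁆ = ⁅j, b⁆ * ⁅j', b⁆ := by
  calc ⁅j * j', b⁆ = j * ⁅j', b⁆ * j⁻¹ * ⁅j, b⁆ := by simp [commutatorElement_def, mul_assoc]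
    _ = ⁅j', b⁆ * ⁅j, b⁆ := by rw [K_comm hj (comm_mem h hj' hb), mul_inv_cancel_right]
    _ = ⁅j, b⁆ * ⁅j', b⁆ :=
      D.comm w _ (comm_mem h hj' hb).1 _ (comm_mem h hj hb).1

theorem comm_inv_left {u w : X} (h : u ≠ w) {j b : G} (hj : j ∈ D.K u w) (hb : b ∈ D.N w) :
    ⁅j⁻¹, b⁆ = ⁅j, b⁆⁻¹ := by
  refine eq_inv_of_mul_eq_one_left ?_
  rw [← comm_mul_left h (inv_mem hj) hj hb, inv_mul_cancel]
  simp [commutatorElement_def]

theorem eq_one_of_comm_eq_one {u w : X} {j b : G} (hj : j ∈ D.K u w) (hb : b ∈ D.N w)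
    (h : ⁅j, b⁆ = 1) (hbn : b ∉ D.K w u) : j = 1 := by
  by_contra hj1
  exact hbn (mem_K_of_comm hj.1 hj1 hb (commutatorElement_eq_one_iff_mul_comm.1 h).symm)

theorem comm_inj {u w : X} (h : u ≠ w) {j j' b : G} (hj : j ∈ D.K u w) (hj' : j' ∈ D.K u w)
    (hb : b ∈ D.N w) (hbn : b ∉ D.K w u) (heq : ⁅j, b⁆ = ⁅j', b⁆) : j = j' := by
  have h1 := comm_mul_left h hj (mul_mem (inv_mem hj) hj') hb
  rw [mul_inv_cancel_left, ← heq, left_eq_mul] at h1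
  exact inv_mul_eq_one.1 (eq_one_of_comm_eq_one (mul_mem (inv_mem hj) hj') hb h1 hbn)

theorem exists_comm_eq {u w : X} (h : u ≠ w) {b m : G} (hb : b ∈ D.N w) (hbn : b ∉ D.K w u)
    (hm : m ∈ D.K w u) : ∃ j ∈ D.K u w, ⁅j, b⁆ = m := by
  let f : D.K u w → D.K w u := fun j => ⟨⁅(j : G), b⁆, comm_mem h j.2 hb⟩
  have hf : Function.Injective f := fun j j' e =>
    Subtype.ext (comm_inj h j.2 j'.2 hb hbn (congrArg Subtype.val e))
  obtain ⟨j, hj⟩ := (hf.bijective_of_nat_card_le (card_K_eq h.symm h).le).2 ⟨m, hm⟩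
  exact ⟨j, j.2, congrArg Subtype.val hj⟩

/-- `n b z = [n, b] b z` for `n` fixing `z`. -/
theorem smul_orbit_eq {y z : X} {n b : G} (hn : n • y = y) (hb : b ∈ D.N y) (hnz : n • z = z) :
    n • b • z = b • ⁅n, b⁆ • z := by
  rw [← mul_smul, ← mul_smul, D.comm y b hb _ (comm_mem_N (u := y) hn hb),
    show ⁅n, b⁆ * b = n * b * n⁻¹ by simp [commutatorElement_def], mul_smul, mul_smul, mul_smul,
    inv_smul_eq_iff.2 hnz.symm]

theorem orbit_fix {x y z : X} (hxy : x ≠ y) {n b : G} (hn : n ∈ D.K x y) (hn1 : n ≠ 1)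
    (hnz : n • z = z) (hb : b ∈ D.N y) : n • b • z = b • z := by
  by_cases hzx : z = x
  · subst hzx; exact fix_orbit hxy hn hb
  by_cases hzy : z = y
  · subst hzy; rw [D.smul_self z b hb]; exact (mem_K.1 hn).2
  have hyz : y ≠ z := Ne.symm hzy
  have hnxz : n ∈ D.K x z := ⟨hn.1, hnz⟩
  have hny : n • y = y := (mem_K.1 hn).2
  by_contra hgoal
  have hd0z : ⁅n, b⁆ • z ≠ z := fun e => hgoal (by rw [smul_orbit_eq hny hb hnz, e])
  have hd0 : ⁅n, b⁆ ∈ D.K y x := comm_mem hxy hn hb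
  set d0 := ⁅n, b⁆ with hd0def
  have hd0n : d0 ∉ D.K y z := fun h => hd0z (mem_K.1 h).2
  have hnb : n * b * n⁻¹ = d0 * b := by simp [hd0def, commutatorElement_def]
  -- some element of `K z y` is moved by `n`
  obtain ⟨j, hj, hτj⟩ : ∃ j ∈ D.K z y, ⁅n, j⁆ ≠ 1 := by
    by_contra hall
    push Not at hall
    have key : ∀ k ∈ D.K y z, ∃ k' ∈ D.K y z, ⁅n, k'⁆ = k := by
      intro k hk
      obtain ⟨j, hj, hjk⟩ := exists_comm_eq hzy hd0.1 hd0n hk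
      refine ⟨⁅j, b⁆, comm_mem hzy hj hb, ?_⟩
      have hnj : n * j * n⁻¹ = j := by
        rw [commutatorElement_eq_one_iff_mul_comm.1 (hall j hj), mul_inv_cancel_right]
      have h1 : n * ⁅j, b⁆ * n⁻¹ = ⁅j, d0⁆ * ⁅j, b⁆ := by
        rw [show n * ⁅j, b⁆ * n⁻¹ = ⁅n * j * n⁻¹, n * b * n⁻¹⁆ by
          simp [commutatorElement_def, mul_assoc], hnj, hnb,
          comm_mul_right (mem_K.1 hj).2 hd0.1 hb]
      rw [commutatorElement_def n, h1, mul_inv_cancel_right, hjk]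
    obtain ⟨k, hk, hk1⟩ := exists_ne_one_K (D := D) hyz
    obtain ⟨k', hk', hkk'⟩ := key k hk
    obtain ⟨k'', hk'', hk''k'⟩ := key k' hk'
    refine hk1 (hkk' ▸ commutatorElement_eq_one_iff_mul_comm.2 ?_)
    rw [← hk''k']
    exact K_comm hn (comm_mem hxy hn hk''.1)
  set j1 := ⁅n, j⁆ with hj1def
  have hj1x : j1 ∈ D.K z x := comm_mem (Ne.symm hzx) hnxz hj.1
  have hj1 : j1 ∈ D.K z y := ⟨hj1x.1, smul_comm_fix hny (mem_K.1 hj).2⟩
  -- commutators with elements of `K z x` fixing `y`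
  have hconjn : ∀ i ∈ D.K z x, ∀ a : G, n * ⁅i, a⁆ * n⁻¹ = ⁅i, n * a * n⁻¹⁆ := by
    intro i hi a
    have : n * i * n⁻¹ = i := by rw [K_comm hnxz hi, mul_inv_cancel_right]
    conv_rhs => rw [← this]
    simp [commutatorElement_def, mul_assoc]
  have hfixn : ∀ i ∈ D.K z y, i ∈ D.K z x → ⁅i, d0⁆ ∈ D.K y x := by
    intro i hi hix
    refine mem_K_of_comm hn.1 hn1 (comm_mem hzy hi hd0.1).1 ?_
    refine (mul_inv_eq_iff_eq_mul.1 ?_).symm
    rw [hconjn i hix, K_comm hn hd0, mul_inv_cancel_right]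
  have hbnot : ∀ i ∈ D.K z y, i ∈ D.K z x → i ≠ 1 → ⁅i, b⁆ ∉ D.K y x := by
    intro i hi hix hi1 hmem
    have h1 : n * ⁅i, b⁆ * n⁻¹ = ⁅i, d0⁆ * ⁅i, b⁆ := by
      rw [hconjn i hix, hnb, comm_mul_right (mem_K.1 hi).2 hd0.1 hb]
    rw [K_comm hn hmem, mul_inv_cancel_right, right_eq_mul] at h1
    exact hi1 (eq_one_of_comm_eq_one hi hd0.1 h1 hd0n)
  set m1 := ⁅j1, d0⁆ with hm1def
  have hm1 : m1 ∈ D.K y x := hfixn j1 hj1 hj1x
  have hm1z : m1 ∈ D.K y z := comm_mem hzy hj1 hd0.1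
  have hm11 : m1 ≠ 1 := fun e => hτj (eq_one_of_comm_eq_one hj1 hd0.1 e hd0n)
  -- the elements moving `z` inside its orbit
  have key : ∀ g ∈ D.K x y, g ≠ 1 → ∀ t ∈ D.N y, g • z = t • z → ∀ a ∈ D.N y,
      (⁅j1, a⁆ ∈ D.K y x ↔ ⁅g, a⁆ ∈ D.K y z) := by
    intro g hg hg1 t ht hgz a ha
    set L := t⁻¹ * (g * j1 * g⁻¹) * t⁻¹⁻¹ with hL
    have hLmem : L ∈ D.K z y :=
      conj_mem_K' (inv_smul_eq_iff.2 rfl)
        (inv_smul_eq_iff.2 (D.smul_self y t ht).symm) (conj_mem_K' hgz (mem_K.1 hg).2 hj1)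
    have hgen : ∀ a ∈ D.N y, g * ⁅j1, a⁆ * g⁻¹ = ⁅L, g * a * g⁻¹⁆ := by
      intro a ha
      have hga : g * a * g⁻¹ ∈ D.N y := conj_mem_fix (mem_K.1 hg).2 ha
      have h1 : g * ⁅j1, a⁆ * g⁻¹ = t * ⁅L, t⁻¹ * (g * a * g⁻¹) * t⁆ * t⁻¹ := by
        simp [hL, commutatorElement_def, mul_assoc]
      rw [h1, D.comm y _ (inv_mem ht) _ hga, inv_mul_cancel_right,
        D.comm y t ht _ (comm_mem_N (u := y) (mem_K.1 hLmem).2 hga), mul_inv_cancel_right]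
    have hLeq : L = j1 := by
      refine comm_inj hzy hLmem hj1 hd0.1 hd0n ?_
      have h1 := hgen d0 hd0.1
      rw [K_comm hg hd0, mul_inv_cancel_right] at h1
      rw [← h1, ← hm1def, K_comm hg hm1, mul_inv_cancel_right]
    have hca : ⁅g, a⁆ ∈ D.N y := comm_mem_N (u := y) (mem_K.1 hg).2 ha
    have h2 : g * ⁅j1, a⁆ * g⁻¹ = ⁅j1, ⁅g, a⁆⁆ * ⁅j1, a⁆ := by
      rw [hgen a ha, hLeq, show g * a * g⁻¹ = ⁅g, a⁆ * a by simp [commutatorElement_def],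
        comm_mul_right (mem_K.1 hj1).2 hca ha]
    constructor
    · intro hmem
      rw [K_comm hg hmem, mul_inv_cancel_right, right_eq_mul] at h2
      exact mem_K_of_comm hj1.1 (fun e => hτj e) hca
        (commutatorElement_eq_one_iff_mul_comm.1 h2).symm
    · intro hmem
      rw [commutatorElement_eq_one_iff_mul_comm.2 (K_comm hj1 hmem), one_mul] at h2
      exact mem_K_of_comm hg.1 hg1 (comm_mem hzy hj1 ha).1 (mul_inv_eq_iff_eq_mul.1 h2).symm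
  have hd0P : ∀ d ∈ D.K y x, ⁅j1, d⁆ ∈ D.K y x := fun d hd =>
    (key n hn hn1 1 (one_mem _) (by rw [hnz, one_smul]) d hd.1).2
      (by rw [commutatorElement_eq_one_iff_mul_comm.2 (K_comm hn hd)]; exact one_mem _)
  have hout : ∀ g ∈ D.K x y, g ≠ 1 → ∀ t ∈ D.N y, g • z = t • z → ⁅g, b⁆ ∉ D.K y z :=
    fun g hg hg1 t ht hgz h =>
      hbnot j1 hj1 hj1x hτj ((key g hg hg1 t ht hgz b hb).2 h)
  -- the three small intersections
  let Ix : Subgroup G := D.K x y ⊓ D.K x z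
  let Iy : Subgroup G := D.K y x ⊓ D.K y z
  let Iz : Subgroup G := D.K z x ⊓ D.K z y
  have hyz_le : Nat.card Iy ≤ Nat.card Iz := by
    have hpre : ∀ m : Iy, ∃ i : Iz, ⁅(i : G), d0⁆ = m := by
      intro m
      obtain ⟨i, hi, him⟩ := exists_comm_eq hzy hd0.1 hd0n m.2.2
      refine ⟨⟨i, ⟨hi.1, smul_eq_of_comm hn.1 hn1 ?_⟩, hi⟩, him⟩
      refine (mul_inv_eq_iff_eq_mul.1 (comm_inj hzy ?_ hi hd0.1 hd0n ?_)).symm
      · exact conj_mem_K' hnz hny hi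
      · calc ⁅n * i * n⁻¹, d0⁆ = ⁅n * i * n⁻¹, n * d0 * n⁻¹⁆ := by
              rw [K_comm hn hd0, mul_inv_cancel_right]
          _ = n * ⁅i, d0⁆ * n⁻¹ := by simp [commutatorElement_def, mul_assoc]
          _ = ⁅i, d0⁆ := by rw [him, K_comm hn m.2.1, mul_inv_cancel_right]
    choose f hf using hpre
    exact Nat.card_le_card_of_injective f fun m m' e => Subtype.ext (by rw [← hf m, ← hf m', e])
  have hsq : Nat.card Iy * Nat.card Iz ≤ Nat.card (D.K y z) := by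
    rw [← Nat.card_prod]
    refine Nat.card_le_card_of_injective (fun e : Iy × Iz =>
      (⟨e.1 * ⁅(e.2 : G), b⁆, mul_mem e.1.2.2 (comm_mem hzy e.2.2.2 hb)⟩ : D.K y z)) ?_
    rintro ⟨m, i⟩ ⟨m', i'⟩ e
    have h1 : (m : G) * ⁅(i : G), b⁆ = m' * ⁅(i' : G), b⁆ := congrArg Subtype.val e
    have h2 : (m' : G)⁻¹ * m = ⁅(i' : G) * (i : G)⁻¹, b⁆ := by
      rw [comm_mul_left hzy i'.2.2 (inv_mem i.2.2) hb, comm_inv_left hzy i.2.2 hb,
        eq_mul_inv_iff_mul_eq, mul_assoc, h1, inv_mul_cancel_left]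
    have h3 : (i' : G) * (i : G)⁻¹ = 1 := by
      by_contra h3
      exact hbnot _ (mul_mem i'.2.2 (inv_mem i.2.2)) (mul_mem i'.2.1 (inv_mem i.2.1)) h3
        (h2 ▸ mul_mem (inv_mem m'.2.1) m.2.1)
    have h4 : (i' : G) = i := mul_inv_eq_one.1 h3
    rw [h4] at h1
    exact Prod.ext (Subtype.ext (mul_right_cancel h1)) (Subtype.ext h4.symm)
  have hIx : Nat.card (D.K x z) ≤ Nat.card Ix * Nat.card Ix := by
    let φ : D.K x z →* G := MonoidHom.mk' (fun a => ⁅m1, (a : G)⁆) fun a a' =>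
      comm_mul_right (mem_K.1 hm1).2 a.2.1 a'.2.1
    have hker : Nat.card φ.ker ≤ Nat.card Ix := by
      refine Nat.card_le_card_of_injective (fun a : φ.ker => (⟨a, ⟨a.1.2.1, ?_⟩, a.1.2⟩ : Ix))
        fun a a' e => by
          ext
          exact congrArg (fun i : Ix => (i : G)) e
      exact smul_eq_of_comm hm1.1 hm11
        (commutatorElement_eq_one_iff_mul_comm.1 a.2).symm
    have hran : Nat.card φ.range ≤ Nat.card Ix := by
      refine Subgroup.card_le_of_le ?_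
      rintro _ ⟨a, rfl⟩
      have h1 : ⁅m1, (a : G)⁆ ∈ D.K x y := comm_mem hxy.symm hm1 a.2.1
      exact ⟨h1, h1.1, smul_comm_fix (mem_K.1 hm1z).2 (mem_K.1 a.2).2⟩
    rw [← Subgroup.card_mul_index φ.ker, Subgroup.index_ker]
    exact Nat.mul_le_mul hker hran
  have hle : Nat.card Iy ≤ Nat.card Ix := by
    refine Nat.mul_self_le_mul_self_iff.1 ?_
    calc Nat.card Iy * Nat.card Iy ≤ Nat.card Iy * Nat.card Iz := Nat.mul_le_mul_left _ hyz_le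
      _ ≤ Nat.card (D.K y z) := hsq
      _ = Nat.card (D.K x z) := card_K_eq hyz (Ne.symm hzx)
      _ ≤ _ := hIx
  let ψ : Ix → Iy := fun e => ⟨⁅j1, ⁅(e : G), b⁆⁆, hd0P _ (comm_mem hxy e.2.1 hb),
    comm_mem hzy hj1 (comm_mem hxy e.2.1 hb).1⟩
  have hψ : Function.Injective ψ := by
    intro e e' heq
    by_contra hne
    have h1 : ⁅j1, ⁅(e : G), b⁆⁆ = ⁅j1, ⁅(e' : G), b⁆⁆ := congrArg Subtype.val heq
    have hmem : (e : G) * (e' : G)⁻¹ ∈ D.K x y := mul_mem e.2.1 (inv_mem e'.2.1)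
    have hmemz : (e : G) * (e' : G)⁻¹ ∈ D.K x z := mul_mem e.2.2 (inv_mem e'.2.2)
    refine hout _ hmem (fun h => hne (Subtype.ext (mul_inv_eq_one.1 h))) 1 (one_mem _)
      (by rw [one_smul]; exact (mem_K.1 hmemz).2) ?_
    have h2 : (e : G) = (e : G) * (e' : G)⁻¹ * e' := by group
    rw [h2, comm_mul_left hxy hmem e'.2.1 hb,
      comm_mul_right (mem_K.1 hj1).2 (comm_mem hxy hmem hb).1 (comm_mem hxy e'.2.1 hb).1,
      mul_eq_right] at h1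
    exact mem_K_of_comm hj1.1 (fun e => hτj e) (comm_mem hxy hmem hb).1
      (commutatorElement_eq_one_iff_mul_comm.1 h1).symm
  -- an element of `K x y` fixing `b z`
  have hbzx : x ≠ b • z := fun e => hgoal (by rw [← e, D.smul_self x n hn.1])
  have hm1bz : m1 • b • z = b • z := by
    rw [← mul_smul, D.comm y m1 hm1.1 b hb, mul_smul, (mem_K.1 hm1z).2]
  obtain ⟨n2, hn2, hn21, hn2z⟩ := exists_symm hxy.symm hbzx hm1 hm11 hm1bz
  obtain ⟨e, he⟩ := (hψ.bijective_of_nat_card_le hle).2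
    ⟨⁅j1, ⁅n2, b⁆⁆, hd0P _ (comm_mem hxy hn2 hb), comm_mem hzy hj1 (comm_mem hxy hn2 hb).1⟩
  have he' : ⁅j1, ⁅(e : G), b⁆⁆ = ⁅j1, ⁅n2, b⁆⁆ := congrArg Subtype.val he
  have hemem : ⁅(e : G)⁻¹ * n2, b⁆ ∈ D.K y z := by
    have hg : (e : G)⁻¹ * n2 ∈ D.K x y := mul_mem (inv_mem e.2.1) hn2
    rw [show n2 = (e : G) * ((e : G)⁻¹ * n2) by group, comm_mul_left hxy e.2.1 hg hb,
      comm_mul_right (mem_K.1 hj1).2 (comm_mem hxy e.2.1 hb).1 (comm_mem hxy hg hb).1,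
      left_eq_mul] at he'
    exact mem_K_of_comm hj1.1 (fun e => hτj e) (comm_mem hxy hg hb).1
      (commutatorElement_eq_one_iff_mul_comm.1 he').symm
  by_cases hg1 : (e : G)⁻¹ * n2 = 1
  · rw [inv_mul_eq_one] at hg1
    have hn2fix : n2 • z = z := hg1 ▸ (mem_K.1 e.2.2).2
    refine hout n2 hn2 hn21 1 (one_mem _) (by rw [one_smul, hn2fix]) ⟨(comm_mem hxy hn2 hb).1, ?_⟩
    have h1 := smul_orbit_eq (mem_K.1 hn2).2 hb hn2fix
    rw [hn2z, smul_left_cancel_iff] at h1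
    exact h1.symm
  refine hout _ (mul_mem (inv_mem e.2.1) hn2) hg1
    ((e : G)⁻¹ * (n2 * b⁻¹ * n2⁻¹ * b) * (e : G)⁻¹⁻¹)
    (conj_mem_fix (inv_smul_eq_iff.2 (mem_K.1 e.2.1).2.symm)
      (mul_mem (conj_mem_fix (mem_K.1 hn2).2 (inv_mem hb)) hb)) ?_ hemem
  rw [mul_smul, inv_inv, mul_smul, mul_smul, (mem_K.1 e.2.2).2, mul_smul, mul_smul, mul_smul,
    inv_smul_eq_iff.2 hn2z.symm, inv_smul_smul]

end Fam

end CfsgLib.ONan48
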