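import Mathlib
import Cfsg.Agent.ONan48.Fixed

/-!
The translates of a largest fixed point set form a symmetric design, so the set stabiliser has
index equal to the degree and acts unfaithfully on one of its orbits.
-/

set_option autoImplicit false

namespace CfsgLib.ONan48

open MulAction Finset
open scoped _root_.Classical commutatorElement Pointwise

namespace Fam

variable {G X : Type*} [Group G] [MulAction G X]

/-- The elements of the member at `u` fixing `S` pointwise. -/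
def E (D : Fam G X) (S : Set X) (u : X) : Subgroup G := D.N u ⊓ fixingSubgroup G S

theorem mem_E {D : Fam G X} {S : Set X} {u : X} {a : G} :
    a ∈ D.E S u ↔ a ∈ D.N u ∧ ∀ s ∈ S, a • s = s := by
  simp [E, mem_fixingSubgroup_iff]

/-- A fixed point set of an element of a member which is largest among those with two points. -/
structure Top (D : Fam G X) where
  x : X
  n : G
  n_mem : n ∈ D.N x
  n_ne : n ≠ 1
  two : ∀ u, ∃ w ∈ fixedBy X n, w ≠ u
  max : ∀ u, ∀ m ∈ D.N u, m ≠ 1 → fixedBy X n ⊆ fixedBy X m → fixedBy X m = fixedBy X n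

variable [Finite G] [Finite X] [FaithfulSMul G X] {D : Fam G X}

theorem exists_top {x y : X} (hxy : x ≠ y) : Nonempty (Top D) := by
  haveI := Fintype.ofFinite G
  let good : G → Prop := fun n => n ≠ 1 ∧ ∃ u w, u ≠ w ∧ n ∈ D.K u w
  obtain ⟨a, ha, ha1⟩ := exists_ne_one_K (D := D) hxy
  obtain ⟨n, hn, hmax⟩ := (univ.filter good).exists_max_image
    (fun n => (fixedBy X n).ncard) ⟨a, mem_filter.2 ⟨mem_univ _, ha1, x, y, hxy, ha⟩⟩
  obtain ⟨hn1, u₀, w₀, huw, hn0⟩ := (mem_filter.1 hn).2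
  have htwo : ∀ u, ∃ w ∈ fixedBy X n, w ≠ u := fun u => by
    by_cases h : u₀ = u
    · exact ⟨w₀, (mem_K.1 hn0).2, h ▸ huw.symm⟩
    · exact ⟨u₀, D.smul_self u₀ n hn0.1, h⟩
  refine ⟨⟨u₀, n, hn0.1, hn1, htwo, fun u m hm hm1 hsub => ?_⟩⟩
  obtain ⟨w, hw, hwu⟩ := htwo u
  exact (Set.eq_of_subset_of_ncard_le hsub
    (hmax m (mem_filter.2 ⟨mem_univ _, hm1, u, w, hwu.symm, hm, hsub hw⟩)) (Set.toFinite _)).symm

namespace Top

variable (T : Top D)

/-- The fixed point set. -/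
def F : Set X := fixedBy X T.n

omit [Finite G] [Finite X] [FaithfulSMul G X] in
theorem x_mem : T.x ∈ T.F := D.smul_self T.x T.n T.n_mem

omit [Finite G] [Finite X] [FaithfulSMul G X] in
theorem eq_F {u : X} {m : G} (hm : m ∈ D.E T.F u) (hm1 : m ≠ 1) : fixedBy X m = T.F :=
  T.max u m (mem_E.1 hm).1 hm1 fun s hs => (mem_E.1 hm).2 s hs

theorem exists_notMem : ∃ z, z ∉ T.F := by
  by_contra h
  push Not at h
  exact T.n_ne (FaithfulSMul.eq_of_smul_eq_smul fun z : X => by rw [one_smul]; exact h z)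

/-- The members at points of `F` preserve it. -/
theorem smul_mem {w f : X} (hw : w ∈ T.F) {b : G} (hb : b ∈ D.N w) (hf : f ∈ T.F) :
    b • f ∈ T.F := by
  by_cases h : T.x = w
  · subst h
    show T.n • b • f = b • f
    rw [← mul_smul, D.comm _ _ T.n_mem b hb, mul_smul]
    exact congrArg (b • ·) hf
  · exact orbit_fix h ⟨T.n_mem, hw⟩ T.n_ne hf hb

theorem comm_mem_E {u w : X} (huw : u ≠ w) (hw : w ∈ T.F) {m b : G} (hm : m ∈ D.E T.F u)
    (hb : b ∈ D.N w) : ⁅m, b⁆ ∈ D.E T.F w := by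
  refine mem_E.2 ⟨(comm_mem huw (D := D) ⟨(mem_E.1 hm).1, (mem_E.1 hm).2 w hw⟩ hb).1,
    fun f hf => ?_⟩
  have hf' : b⁻¹ • f ∈ T.F := T.smul_mem hw (inv_mem hb) hf
  rw [commutatorElement_def, mul_smul, mul_smul, mul_smul,
    inv_smul_eq_iff.2 ((mem_E.1 hm).2 _ hf').symm, smul_inv_smul]
  exact (mem_E.1 hm).2 f hf

theorem exists_E {u : X} (hu : u ∈ T.F) : ∃ m ∈ D.E T.F u, m ≠ 1 := by
  by_cases h : T.x = u
  · exact ⟨T.n, mem_E.2 ⟨h ▸ T.n_mem, fun s hs => hs⟩, T.n_ne⟩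
  obtain ⟨b, hb, hmove⟩ := exists_moved (D := D) (Ne.symm h)
  refine ⟨⁅T.n, b⁆, T.comm_mem_E h hu (mem_E.2 ⟨T.n_mem, fun s hs => hs⟩) hb, fun e => ?_⟩
  exact hmove (smul_eq_of_comm T.n_mem T.n_ne (commutatorElement_eq_one_iff_mul_comm.1 e).symm)

/-- The order of a member. -/
noncomputable def α : ℕ := Nat.card (D.N T.x)

theorem card_N (u : X) : Nat.card (D.N u) = T.α := by
  by_cases h : u = T.x
  · rw [h, α]
  · exact card_N_eq h

theorem card_mul_le {u z : X} (hu : u ∈ T.F) (hz : z ∉ T.F) :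
    Nat.card (D.E T.F u) * Nat.card (D.K u z) ≤ T.α := by
  rw [← T.card_N u, ← Nat.card_prod]
  refine Nat.card_le_card_of_injective (fun e : D.E T.F u × D.K u z =>
    (⟨e.1 * e.2, mul_mem (mem_E.1 e.1.2).1 e.2.2.1⟩ : D.N u)) ?_
  rintro ⟨a, k⟩ ⟨a', k'⟩ e
  have h1 : (a : G) * k = a' * k' := congrArg Subtype.val e
  have h2 : (a' : G)⁻¹ * a = k' * (k : G)⁻¹ := by
    rw [eq_mul_inv_iff_mul_eq, mul_assoc, h1, inv_mul_cancel_left]
  have h3 : (a' : G)⁻¹ * a = 1 := by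
    by_contra h3
    have hfix : z ∈ fixedBy X ((a' : G)⁻¹ * a) :=
      (mem_K.1 (h2 ▸ mul_mem k'.2 (inv_mem k.2) : (a' : G)⁻¹ * a ∈ D.K u z)).2
    rw [T.eq_F (mul_mem (inv_mem a'.2) a.2) h3] at hfix
    exact hz hfix
  have h4 : (a : G) = a' := (inv_mul_eq_one.1 h3).symm
  rw [h4] at h1
  exact Prod.ext (Subtype.ext h4) (Subtype.ext (mul_left_cancel h1))

/-- `b ↦ [m, b]` maps `N w` onto `E F w`, and `|E F w| κ = α`. -/
theorem comm_range {u w : X} (hu : u ∈ T.F) (hw : w ∈ T.F) (huw : u ≠ w) {m : G}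
    (hm : m ∈ D.E T.F u) (hm1 : m ≠ 1) :
    (∀ e ∈ D.E T.F w, ∃ b ∈ D.N w, ⁅m, b⁆ = e) ∧
      T.α ≤ Nat.card (D.E T.F w) * Nat.card (D.K w u) := by
  have hmK : m ∈ D.K u w := ⟨(mem_E.1 hm).1, (mem_E.1 hm).2 w hw⟩
  let φ : D.N w →* G := MonoidHom.mk' (fun b => ⁅m, (b : G)⁆) fun b b' =>
    comm_mul_right (mem_K.1 hmK).2 b.2 b'.2
  have hker : Nat.card φ.ker ≤ Nat.card (D.K w u) := by
    refine Nat.card_le_card_of_injective (fun a : φ.ker => (⟨a, mem_K_of_comm (mem_E.1 hm).1 hm1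
      a.1.2 (commutatorElement_eq_one_iff_mul_comm.1 a.2).symm⟩ : D.K w u)) fun a a' e => by
        ext
        exact congrArg (fun i : D.K w u => (i : G)) e
  have hran : φ.range ≤ D.E T.F w := by
    rintro _ ⟨b, rfl⟩
    exact T.comm_mem_E huw hw hm b.2
  have hcard : T.α ≤ Nat.card φ.range * Nat.card (D.K w u) := by
    rw [← T.card_N w, ← Subgroup.card_mul_index φ.ker, Subgroup.index_ker, Nat.mul_comm]
    exact Nat.mul_le_mul_left _ hker
  refine ⟨fun e he => ?_, hcard.trans (Nat.mul_le_mul_right _ (Subgroup.card_le_of_le hran))⟩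
  obtain ⟨z, hz⟩ := T.exists_notMem
  have heq : φ.range = D.E T.F w := by
    refine Subgroup.eq_of_le_of_card_ge hran (Nat.le_of_mul_le_mul_right ?_ Nat.card_pos
      (c := Nat.card (D.K w u)))
    calc Nat.card (D.E T.F w) * Nat.card (D.K w u)
        = Nat.card (D.E T.F w) * Nat.card (D.K w z) := by
          rw [card_K_eq huw.symm fun e : w = z => hz (e ▸ hw)]
      _ ≤ T.α := T.card_mul_le hw hz
      _ ≤ _ := hcard
  rw [← heq] at he
  obtain ⟨b, hb⟩ := he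
  exact ⟨b, b.2, hb⟩

theorem card_E_mul {u : X} {z : X} (hu : u ∈ T.F) (hz : z ∉ T.F) :
    Nat.card (D.E T.F u) * Nat.card (D.K u z) = T.α := by
  refine le_antisymm (T.card_mul_le hu hz) ?_
  obtain ⟨w, hw, hwu⟩ := T.two u
  obtain ⟨m, hm, hm1⟩ := T.exists_E hw
  rw [card_K_eq (fun e : u = z => hz (e ▸ hu)) (Ne.symm hwu)]
  exact (T.comm_range hw hu hwu hm hm1).2

theorem card_E {u : X} (hu : u ∈ T.F) : Nat.card (D.E T.F u) = Nat.card (D.E T.F T.x) := by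
  obtain ⟨z, hz⟩ := T.exists_notMem
  have h1 := T.card_E_mul hu hz
  rw [← T.card_E_mul T.x_mem hz,
    card_K_eq (fun e : u = z => hz (e ▸ hu)) (fun e : T.x = z => hz (e ▸ T.x_mem))] at h1
  exact Nat.eq_of_mul_eq_mul_right Nat.card_pos h1

/-- The union of the `E F u`. -/
def tot : Subgroup G where
  carrier := {g | ∃ u ∈ T.F, g ∈ D.E T.F u}
  one_mem' := ⟨T.x, T.x_mem, one_mem _⟩
  inv_mem' := fun {g} ⟨u, hu, hg⟩ => ⟨u, hu, inv_mem hg⟩
  mul_mem' := by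
    rintro g h ⟨u, hu, hg⟩ ⟨w, hw, hh⟩
    by_cases huw : u = w
    · subst huw; exact ⟨u, hu, mul_mem hg hh⟩
    by_cases hg1 : g = 1
    · exact ⟨w, hw, by rw [hg1, one_mul]; exact hh⟩
    obtain ⟨b, hb, hbh⟩ := (T.comm_range hu hw huw (inv_mem hg) (inv_ne_one.2 hg1)).1 h hh
    refine ⟨b • u, T.smul_mem hw hb hu, mem_E.2 ⟨?_, fun s hs => ?_⟩⟩
    · have h1 : g * h = b * g * b⁻¹ := by rw [← hbh]; simp [commutatorElement_def, mul_assoc]
      rw [h1]
      exact D.conj_mem b u g (mem_E.1 hg).1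
    · rw [mul_smul, (mem_E.1 hh).2 s hs, (mem_E.1 hg).2 s hs]

theorem tot_comm {g h : G} (hg : g ∈ T.tot) (hh : h ∈ T.tot) : g * h = h * g := by
  obtain ⟨u, hu, hgu⟩ := hg
  obtain ⟨w, hw, hhw⟩ := hh
  exact K_comm (D := D) ⟨(mem_E.1 hgu).1, (mem_E.1 hgu).2 w hw⟩
    ⟨(mem_E.1 hhw).1, (mem_E.1 hhw).2 u hu⟩

theorem card_tot_le :
    Nat.card T.tot ≤ 1 + T.F.ncard * (Nat.card (D.E T.F T.x) - 1) := by
  haveI := Fintype.ofFinite G
  haveI := Fintype.ofFinite X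
  have hsub : univ.filter (fun g => g ∈ T.tot) ⊆ insert 1
      (T.F.toFinset.biUnion fun u => (univ.filter fun g => g ∈ D.E T.F u).erase 1) := by
    intro g hg
    obtain ⟨u, hu, hgu⟩ := (mem_filter.1 hg).2
    by_cases h : g = 1
    · exact mem_insert.2 (Or.inl h)
    exact mem_insert.2 (Or.inr (mem_biUnion.2
      ⟨u, Set.mem_toFinset.2 hu, mem_erase.2 ⟨h, mem_filter.2 ⟨mem_univ _, hgu⟩⟩⟩))
  have hcount : ∀ S : Subgroup G, Nat.card S = #(univ.filter fun g => g ∈ S) := fun S => by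
    rw [Nat.card_eq_fintype_card, Fintype.card_subtype]
  rw [hcount, add_comm, Set.ncard_eq_toFinset_card']
  refine (card_le_card hsub).trans ((card_insert_le _ _).trans (Nat.add_le_add_right ?_ 1))
  refine card_biUnion_le_card_mul _ _ _ fun u hu => le_of_eq ?_
  rw [card_erase_of_mem (mem_filter.2 ⟨mem_univ _, one_mem _⟩), ← hcount,
    T.card_E (Set.mem_toFinset.1 hu)]

/-- Characters give `α ≤ |tot|`. -/
theorem alpha_le : T.α ≤ Nat.card T.tot := by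
  obtain ⟨z, hz⟩ := T.exists_notMem
  have hxz : T.x ≠ z := fun e => hz (e ▸ T.x_mem)
  letI : CommGroup T.tot :=
    { (inferInstance : Group T.tot) with
      mul_comm := fun a b => Subtype.ext (T.tot_comm a.2 b.2) }
  letI : CommGroup (D.E T.F T.x) :=
    { (inferInstance : Group (D.E T.F T.x)) with
      mul_comm := fun a b => Subtype.ext (D.comm _ _ (mem_E.1 a.2).1 _ (mem_E.1 b.2).1) }
  obtain ⟨χ, hχ⟩ := CommGroup.exists_apply_ne_one_of_hasEnoughRootsOfUnity (D.E T.F T.x) ℂ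
    (a := ⟨T.n, mem_E.2 ⟨T.n_mem, fun s hs => hs⟩⟩) fun e => T.n_ne (congrArg Subtype.val e)
  -- `[e, a]` for `e` in `tot` and `a` in `K x z`
  have hmem : ∀ e ∈ T.tot, ∀ a ∈ D.N T.x, ⁅e, a⁆ ∈ D.E T.F T.x := by
    rintro e ⟨u, hu, he⟩ a ha
    refine mem_E.2 ⟨comm_mem_N (u := T.x) ((mem_E.1 he).2 _ T.x_mem) ha, fun f hf => ?_⟩
    have hf' : a⁻¹ • f ∈ T.F := T.smul_mem T.x_mem (inv_mem ha) hf
    rw [commutatorElement_def, mul_smul, mul_smul, mul_smul,
      inv_smul_eq_iff.2 ((mem_E.1 he).2 _ hf').symm, smul_inv_smul]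
    exact (mem_E.1 he).2 f hf
  have hfixx : ∀ e ∈ T.tot, e • T.x = T.x := fun e ⟨u, hu, he⟩ => (mem_E.1 he).2 _ T.x_mem
  let f : ∀ a : D.K T.x z, T.tot →* D.E T.F T.x := fun a =>
    MonoidHom.mk' (fun e => ⟨⁅(e : G), (a : G)⁆, hmem e e.2 a a.2.1⟩) fun e e' => by
      apply Subtype.ext
      show ⁅(e : G) * e', (a : G)⁆ = ⁅(e : G), (a : G)⁆ * ⁅(e' : G), (a : G)⁆
      have h1 := hmem e' e'.2 a a.2.1
      calc ⁅(e : G) * e', (a : G)⁆ = e * ⁅(e' : G), (a : G)⁆ * (e : G)⁻¹ * ⁅(e : G), (a : G)⁆ := by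
            simp [commutatorElement_def, mul_assoc]
        _ = ⁅(e' : G), (a : G)⁆ * ⁅(e : G), (a : G)⁆ := by
            rw [T.tot_comm e.2 ⟨T.x, T.x_mem, h1⟩, mul_inv_cancel_right]
        _ = _ := D.comm T.x _ (mem_E.1 h1).1 _ (mem_E.1 (hmem e e.2 a a.2.1)).1
  let H : Subgroup T.tot := (D.E T.F T.x).subgroupOf T.tot
  have hker : ∀ a, χ.comp (f a) ∈ (MonoidHom.domRestrictHom H ℂˣ).ker := by
    intro a
    rw [MonoidHom.mem_ker]
    ext e
    have h1 : f a (e : T.tot) = 1 := Subtype.ext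
      (commutatorElement_eq_one_iff_mul_comm.2 (D.comm T.x _ (mem_E.1 e.2).1 _ a.2.1))
    simp [h1]
  have hHcard : Nat.card H = Nat.card (D.E T.F T.x) :=
    Nat.card_congr (Subgroup.subgroupOfEquivOfLe
      (fun g hg => (⟨T.x, T.x_mem, hg⟩ : g ∈ T.tot))).toEquiv
  have hdual : Nat.card (MonoidHom.domRestrictHom H ℂˣ).ker = Nat.card (↥T.tot ⧸ H) :=
    CommGroup.card_domRestrictHom_ker ℂ H
  haveI : Finite (MonoidHom.domRestrictHom H ℂˣ).ker :=
    Nat.finite_of_card_ne_zero (hdual ▸ Nat.card_pos.ne')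
  have hinj : Function.Injective (fun a : D.K T.x z =>
      (⟨χ.comp (f a), hker a⟩ : (MonoidHom.domRestrictHom H ℂˣ).ker)) := by
    intro a a' h
    by_contra hne
    set d : G := (a : G)⁻¹ * a' with hd
    have hdK : d ∈ D.K T.x z := mul_mem (inv_mem a.2) a'.2
    have hd1 : d ≠ 1 := fun e => hne (Subtype.ext (inv_mul_eq_one.1 e))
    obtain ⟨u, hu, hdu⟩ : ∃ u ∈ T.F, d • u ≠ u := by
      by_contra hall
      push Not at hall
      have hfix : z ∈ fixedBy X d := (mem_K.1 hdK).2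
      rw [T.eq_F (mem_E.2 ⟨hdK.1, hall⟩) hd1] at hfix
      exact hz hfix
    have htrivial : ∀ e : T.tot, χ (f ⟨d, hdK⟩ e) = 1 := by
      intro e
      have h1 : χ (f a e) = χ (f a' e) :=
        congrArg (fun φ : (MonoidHom.domRestrictHom H ℂˣ).ker => φ.1 e) h
      have h2 : f a' e = f a e * f ⟨d, hdK⟩ e := Subtype.ext <| by
        show ⁅(e : G), (a' : G)⁆ = ⁅(e : G), (a : G)⁆ * ⁅(e : G), d⁆
        rw [← comm_mul_right (hfixx e e.2) a.2.1 hdK.1, hd, mul_inv_cancel_left]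
      rwa [h2, map_mul, left_eq_mul] at h1
    -- `e ↦ [e, d]` maps `E F u` onto `E F x`
    let g : D.E T.F u → D.E T.F T.x := fun e => f ⟨d, hdK⟩ ⟨e, u, hu, e.2⟩
    have hg : Function.Injective g := by
      intro e e' he
      by_contra hne'
      have h1 : f ⟨d, hdK⟩ ⟨(e : G)⁻¹ * e', u, hu, mul_mem (inv_mem e.2) e'.2⟩ = 1 := by
        have h2 : (⟨(e : G)⁻¹ * e', u, hu, mul_mem (inv_mem e.2) e'.2⟩ : T.tot) =
          ⟨e, u, hu, e.2⟩⁻¹ * ⟨e', u, hu, e'.2⟩ := rfl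
        rw [h2, map_mul, map_inv]
        exact inv_mul_eq_one.2 he
      exact hdu (smul_eq_of_comm (mul_mem (inv_mem (mem_E.1 e.2).1) (mem_E.1 e'.2).1)
        (fun h => hne' (Subtype.ext (inv_mul_eq_one.1 h)))
        (commutatorElement_eq_one_iff_mul_comm.1 (congrArg Subtype.val h1)).symm)
    obtain ⟨e, he⟩ := (hg.bijective_of_nat_card_le (T.card_E hu).ge).2
      ⟨T.n, mem_E.2 ⟨T.n_mem, fun s hs => hs⟩⟩
    exact hχ (he ▸ htrivial _)
  have hκ := Nat.card_le_card_of_injective _ hinj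
  rw [hdual] at hκ
  calc T.α = Nat.card (D.E T.F T.x) * Nat.card (D.K T.x z) := (T.card_E_mul T.x_mem hz).symm
    _ ≤ Nat.card H * Nat.card (↥T.tot ⧸ H) := by
      rw [hHcard]; exact Nat.mul_le_mul_left _ hκ
    _ = Nat.card T.tot := by rw [mul_comm, ← H.card_eq_card_quotient_mul_card_subgroup]

end Top

end Fam

end CfsgLib.ONan48
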