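import Mathlib
import Cfsg.Agent.ONan48.Blocks

/-!
The set stabiliser of a largest fixed point set has index equal to the degree.
-/

set_option autoImplicit false

namespace CfsgLib.ONan48

open MulAction Finset
open scoped _root_.Classical commutatorElement Pointwise

/-- Fisher's inequality for an equireplicate two-design. -/
theorem fisher {X : Type*} [Fintype X] (Bs : Finset (Set X)) (c l : ℕ) (hl : l < c)
    (hc : ∀ u, #(Bs.filter fun S => u ∈ S) = c)
    (hl' : ∀ u w, u ≠ w → #(Bs.filter fun S => u ∈ S ∧ w ∈ S) = l) :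
    Fintype.card X ≤ #Bs := by
  let L : (X → ℚ) →ₗ[ℚ] (Bs → ℚ) :=
    { toFun := fun w S => ∑ u, if u ∈ (S : Set X) then w u else 0
      map_add' := fun w w' => funext fun S => by
        show (∑ u, if u ∈ (S : Set X) then w u + w' u else 0) = _ + _
        rw [← sum_add_distrib]
        exact sum_congr rfl fun u _ => by split_ifs <;> simp
      map_smul' := fun r w => funext fun S => by
        show (∑ u, if u ∈ (S : Set X) then r * w u else 0) = r * _
        rw [mul_sum]
        exact sum_congr rfl fun u _ => by split_ifs <;> simp }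
  have hinj : Function.Injective L := by
    rw [← LinearMap.ker_eq_bot, LinearMap.ker_eq_bot']
    intro w hw
    have hS : ∀ S ∈ Bs, (∑ u, if u ∈ S then w u else 0) = 0 := fun S hS =>
      congrFun hw ⟨S, hS⟩
    have heq : ∀ u, ((c : ℚ) - l) * w u + l * ∑ t, w t = 0 := by
      intro u
      have h0 : (∑ S ∈ Bs.filter (fun S => u ∈ S), ∑ t, if t ∈ S then w t else 0) = 0 :=
        sum_eq_zero fun S hS' => hS S (mem_filter.1 hS').1
      rw [sum_comm] at h0
      have ht : ∀ t, (∑ S ∈ Bs.filter (fun S => u ∈ S), if t ∈ S then w t else 0) =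
          (if t = u then ((c : ℚ) - l) * w t else 0) + l * w t := by
        intro t
        rw [sum_ite, sum_const_zero, add_zero, sum_const, nsmul_eq_mul, filter_filter]
        by_cases htu : t = u
        · subst htu
          rw [if_pos rfl, show #(Bs.filter fun S => t ∈ S ∧ t ∈ S) = c by simpa using hc t]
          ring
        · rw [if_neg htu, hl' u t (Ne.symm htu)]
          ring
      rw [sum_congr rfl (fun t _ => ht t), sum_add_distrib, ← mul_sum] at h0
      simpa using h0
    have hcl : (0 : ℚ) < (c : ℚ) - l := by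
      have : (l : ℚ) < c := by exact_mod_cast hl
      linarith
    funext u
    have hall : ∀ t, w t = w u := fun t =>
      mul_left_cancel₀ hcl.ne' (add_right_cancel ((heq t).trans (heq u).symm))
    have hu := heq u
    rw [sum_congr rfl (fun t _ => hall t), sum_const, nsmul_eq_mul] at hu
    have hpos : (0 : ℚ) < (c : ℚ) - l + l * #(univ : Finset X) := by positivity
    have h1 : ((c : ℚ) - l + l * #(univ : Finset X)) * w u = 0 := by rw [← hu]; ring
    exact (mul_eq_zero.1 h1).resolve_left hpos.ne'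
  have h := LinearMap.finrank_le_finrank_of_injective hinj
  simpa using h

namespace Fam

variable {G X : Type*} [Group G] [MulAction G X] [Finite G] [Finite X] [FaithfulSMul G X]
  {D : Fam G X}

namespace Top

variable (T : Top D)

theorem smul_F {b : G} (h : ∀ f ∈ T.F, b • f ∈ T.F) : b • T.F = T.F :=
  Set.eq_of_subset_of_ncard_le (fun _ ⟨f, hf, e⟩ => e ▸ h f hf)
    (Set.ncard_smul_set b T.F).ge (Set.toFinite _)

theorem smul_F_of_mem {w : X} (hw : w ∈ T.F) {b : G} (hb : b ∈ D.N w) : b • T.F = T.F :=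
  T.smul_F fun _ hf => T.smul_mem hw hb hf

theorem index_eq : (stabilizer G T.F).index = Nat.card X := by
  haveI := Fintype.ofFinite G
  haveI := Fintype.ofFinite X
  let Bs : Finset (Set X) := univ.image fun g : G => g • T.F
  have hBs : ∀ S, S ∈ Bs ↔ ∃ g : G, g • T.F = S := fun S => by simp [Bs]
  have hindex : (stabilizer G T.F).index = #Bs := by
    rw [index_stabilizer, show orbit G T.F = (Bs : Set (Set X)) by
      ext S; simp [hBs, mem_orbit_iff], Set.ncard_coe_finset]
  -- replication numbers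
  let c := #(Bs.filter fun S => T.x ∈ S)
  let l := fun u w : X => #(Bs.filter fun S => u ∈ S ∧ w ∈ S)
  have hmove : ∀ (g : G) (u w : X), l u w ≤ l (g • u) (g • w) := by
    intro g u w
    refine card_le_card_of_injOn (g • ·) ?_ (MulAction.injective g).injOn
    intro S hS
    simp only [coe_filter, Set.mem_ofPred_eq, hBs] at hS ⊢
    obtain ⟨⟨g', hg'⟩, hu, hw⟩ := hS
    exact ⟨⟨g * g', by rw [mul_smul, hg']⟩, Set.smul_mem_smul_set hu, Set.smul_mem_smul_set hw⟩
  obtain ⟨y, hy, hyx⟩ := T.two T.x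
  have hlc : ∀ u, l u u = #(Bs.filter fun S => u ∈ S) := fun u => by simp [l]
  have hc : ∀ u, #(Bs.filter fun S => u ∈ S) = c := by
    intro u
    by_cases hu : u = T.x
    · rw [hu]
    obtain ⟨g, h1, -⟩ := D.trans u T.x T.x u hu (Ne.symm hu)
    obtain ⟨g', h3, -⟩ := D.trans T.x u u T.x (Ne.symm hu) hu
    rw [← hlc u, show c = l T.x T.x from (hlc T.x).symm]
    exact le_antisymm (by simpa [h1] using hmove g u u) (by simpa [h3] using hmove g' T.x T.x)
  have hl : ∀ u w, u ≠ w → #(Bs.filter fun S => u ∈ S ∧ w ∈ S) = l T.x y := by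
    intro u w huw
    obtain ⟨g, h1, h2⟩ := D.trans u w T.x y huw hyx.symm
    obtain ⟨g', h3, h4⟩ := D.trans T.x y u w hyx.symm huw
    exact le_antisymm (by simpa [h1, h2] using hmove g u w)
      (by simpa [h3, h4] using hmove g' T.x y)
  obtain ⟨z, hz⟩ := T.exists_notMem
  have hlt : l T.x y < c := by
    rw [← hl T.x z (fun e => hz (e ▸ T.x_mem))]
    refine card_lt_card (Finset.ssubset_iff_of_subset ?_ |>.2 ?_)
    · intro S hS
      simp only [mem_filter] at hS ⊢
      exact ⟨hS.1, hS.2.1⟩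
    · refine ⟨T.F, mem_filter.2 ⟨(hBs _).2 ⟨1, one_smul _ _⟩, T.x_mem⟩, fun h => hz ?_⟩
      exact (mem_filter.1 h).2.2
  have hge : Nat.card X ≤ #Bs := by
    rw [Nat.card_eq_fintype_card]
    exact fisher Bs c _ hlt hc hl
  -- double counting
  have hdouble : Fintype.card X * c = #Bs * T.F.ncard := by
    have h := sum_card_bipartiteAbove_eq_sum_card_bipartiteBelow
      (fun (u : X) (S : Set X) => u ∈ S) (s := univ) (t := Bs)
    simp only [bipartiteAbove, bipartiteBelow] at h
    rw [sum_congr rfl (fun u _ => hc u), sum_const, smul_eq_mul, card_univ] at h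
    rw [h, ← smul_eq_mul, ← sum_const]
    refine sum_congr rfl fun S hS => ?_
    obtain ⟨g, rfl⟩ := (hBs S).1 hS
    rw [← Set.ncard_smul_set g T.F, Set.ncard_eq_toFinset_card']
    congr 1
    ext u
    simp [Set.mem_smul_set, Finset.mem_smul_finset]
  -- at most `|F|` blocks through a point
  let Ex : Set X → Finset G := fun S => (univ.filter fun a => a ∈ D.E S T.x).erase 1
  have hEx : ∀ S ∈ Bs.filter (fun S => T.x ∈ S),
      Nat.card (D.E T.F T.x) - 1 ≤ #(Ex S) ∧ ∀ e ∈ Ex S, fixedBy X e = S := by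
    intro S hS
    obtain ⟨hS', hxS⟩ := mem_filter.1 hS
    obtain ⟨g, rfl⟩ := (hBs S).1 hS'
    obtain ⟨u, hu, hgu⟩ := hxS
    have hgu' : g⁻¹ • T.x = u := by rw [← hgu, inv_smul_smul]
    refine ⟨?_, fun e he => ?_⟩
    · rw [card_erase_of_mem (mem_filter.2 ⟨mem_univ _, one_mem _⟩), ← T.card_E hu,
        Nat.card_eq_fintype_card, Fintype.card_subtype]
      refine Nat.sub_le_sub_right
        (card_le_card_of_injOn (fun a => g * a * g⁻¹) ?_ fun a _ b _ h => by simpa using h) 1
      intro a ha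
      simp only [coe_filter, Set.mem_ofPred_eq, Finset.mem_univ, true_and] at ha ⊢
      refine mem_E.2 ⟨hgu ▸ D.conj_mem g u a (mem_E.1 ha).1, ?_⟩
      rintro _ ⟨s, hs, rfl⟩
      show (g * a * g⁻¹) • g • s = g • s
      rw [smul_smul, inv_mul_cancel_right, mul_smul, (mem_E.1 ha).2 s hs]
    · obtain ⟨he1, he⟩ := mem_erase.1 he
      obtain ⟨heN, hefix⟩ := mem_E.1 (mem_filter.1 he).2
      have hmem : g⁻¹ * e * g⁻¹⁻¹ ∈ D.E T.F u := by
        refine mem_E.2 ⟨hgu' ▸ D.conj_mem g⁻¹ T.x e heN, fun s hs => ?_⟩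
        rw [inv_inv, mul_smul, mul_smul, hefix _ (Set.smul_mem_smul_set hs), inv_smul_smul]
      have hne : g⁻¹ * e * g⁻¹⁻¹ ≠ 1 := fun h => he1 (conj_eq_one_iff.1 h)
      rw [← T.eq_F hmem hne, MulAction.smul_fixedBy]
      congr 1
      group
  have hcv : c * (Nat.card (D.E T.F T.x) - 1) ≤ T.α - 1 := by
    have hdisj : ((Bs.filter fun S => T.x ∈ S) : Set (Set X)).PairwiseDisjoint Ex := by
      intro S hS S' hS' hne
      exact disjoint_left.2 fun e he he' =>
        hne (((hEx S hS).2 e he).symm.trans ((hEx S' hS').2 e he'))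
    calc c * (Nat.card (D.E T.F T.x) - 1)
        = ∑ _S ∈ Bs.filter (fun S => T.x ∈ S), (Nat.card (D.E T.F T.x) - 1) := by
          rw [sum_const, smul_eq_mul]
      _ ≤ ∑ S ∈ Bs.filter (fun S => T.x ∈ S), #(Ex S) := sum_le_sum fun S hS => (hEx S hS).1
      _ = #((Bs.filter fun S => T.x ∈ S).biUnion Ex) := (card_biUnion hdisj).symm
      _ ≤ #((univ.filter fun a => a ∈ D.N T.x).erase 1) := by
          refine card_le_card (biUnion_subset.2 fun S _ => erase_subset_erase _ ?_)
          intro a ha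
          simp only [mem_filter, Finset.mem_univ, true_and] at ha ⊢
          exact (mem_E.1 ha).1
      _ = T.α - 1 := by
          rw [card_erase_of_mem (mem_filter.2 ⟨mem_univ _, one_mem _⟩), α,
            Nat.card_eq_fintype_card, Fintype.card_subtype]
  have hα : T.α - 1 ≤ T.F.ncard * (Nat.card (D.E T.F T.x) - 1) := by
    have := T.alpha_le.trans T.card_tot_le
    omega
  have hv : 0 < Nat.card (D.E T.F T.x) - 1 := by
    have : 1 < Nat.card (D.E T.F T.x) := by
      rw [Subgroup.one_lt_card_iff_ne_bot]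
      intro h
      exact T.n_ne (Subgroup.mem_bot.1 (h ▸ mem_E.2 ⟨T.n_mem, fun s hs => hs⟩))
    omega
  have hcf : c ≤ T.F.ncard := Nat.le_of_mul_le_mul_right (hcv.trans hα) hv
  have hf : 0 < T.F.ncard := Set.ncard_pos (Set.toFinite _) |>.2 ⟨T.x, T.x_mem⟩
  have hle : #Bs ≤ Nat.card X := by
    rw [Nat.card_eq_fintype_card]
    refine Nat.le_of_mul_le_mul_right ?_ hf
    rw [← hdouble]
    exact Nat.mul_le_mul_left _ hcf
  rw [hindex]
  omega

theorem not_pretransitive : ¬ IsPretransitive (stabilizer G T.F) X := by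
  intro h
  obtain ⟨z, hz⟩ := T.exists_notMem
  obtain ⟨g, hg⟩ := h.exists_smul_eq T.x z
  have h1 : (g : G) • T.x ∈ (g : G) • T.F := Set.smul_mem_smul_set T.x_mem
  rw [mem_stabilizer_iff.1 g.2] at h1
  exact hz (hg ▸ h1)

theorem exists_moved' (a : X) : ∃ h : stabilizer G T.F, h • a ≠ a := by
  by_cases ha : a = T.x
  · obtain ⟨y, hy, hyx⟩ := T.two T.x
    obtain ⟨b, hb, hba⟩ := exists_moved (D := D) (show y ≠ a from ha ▸ hyx)
    exact ⟨⟨b, T.smul_F_of_mem hy hb⟩, hba⟩
  · obtain ⟨b, hb, hba⟩ := exists_moved (D := D) (show T.x ≠ a from Ne.symm ha)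
    exact ⟨⟨b, T.smul_F_of_mem T.x_mem hb⟩, hba⟩

theorem exists_unfaithful : ∃ a : X, ∃ h : stabilizer G T.F, h ≠ 1 ∧
    ∀ b ∈ orbit (stabilizer G T.F) a, h • b = b := by
  refine ⟨T.x, ⟨T.n, T.smul_F_of_mem T.x_mem T.n_mem⟩,
    fun h => T.n_ne (congrArg Subtype.val h), ?_⟩
  rintro _ ⟨g, rfl⟩
  show T.n • (g : G) • T.x = (g : G) • T.x
  have h1 : (g : G) • T.x ∈ (g : G) • T.F := Set.smul_mem_smul_set T.x_mem
  rw [mem_stabilizer_iff.1 g.2] at h1
  exact h1

end Top

end Fam

end CfsgLib.ONan48
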