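import Mathlib
import Cfsg.Prelude.Def_Local
import Cfsg.Agent.S1325
import Cfsg.Agent.S1320
import Cfsg.Agent.S1265

/-!
A non-abelian simple normal subgroup with trivial centraliser is the generalised Fitting subgroup.
-/

set_option autoImplicit false

namespace CfsgLib.ONan48

open scoped _root_.Classical

theorem fStar_eq_top {L : Type*} [Group L] [Finite L] (hL : IsSimpleGroup L)
    (hF : (Cfsg.generalizedFittingSubgroup L).Normal) :
    Cfsg.generalizedFittingSubgroup L = ⊤ := by
  haveI := hL
  refine (hF.eq_bot_or_eq_top).resolve_left fun h => ?_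
  have h1 := Cfsg.Agent.S1265.result (G := L)
  rw [h] at h1
  obtain ⟨a, b, hab⟩ := exists_pair_ne L
  have : ∀ c : L, c = 1 := fun c => Subgroup.mem_bot.1 (h1 (Subgroup.mem_centralizer_iff.2
    fun d hd => by rw [Subgroup.mem_bot.1 hd, one_mul, mul_one]))
  exact hab ((this a).trans (this b).symm)

theorem fStar_eq {G : Type*} [Group G] [Finite G] (L : Subgroup G) [L.Normal]
    (hL : IsSimpleGroup L) (hna : ¬ IsMulCommutative L)
    (hC : Subgroup.centralizer (L : Set G) = ⊥) :
    Cfsg.generalizedFittingSubgroup G = L := by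
  haveI := hL
  refine le_antisymm (Cfsg.Agent.S1325.result L ?_ (hC ▸ bot_le)) ?_
  · have hsol : Group.IsSolvable ↥(Cfsg.fittingSubgroup G) :=
      CfsgLib.Cores.fittingSubgroup_isSolvable
    have hdis : Disjoint L (Cfsg.fittingSubgroup G) := by
      rw [disjoint_comm, ← Subgroup.subgroupOf_eq_bot]
      refine (Subgroup.Normal.eq_bot_or_eq_top inferInstance).resolve_right fun h => hna ?_
      rw [Subgroup.subgroupOf_eq_top] at h
      exact ⟨⟨(IsSimpleGroup.comm_iff_isSolvable).2 (CfsgLib.Cores.isSolvable_of_le h hsol)⟩⟩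
    intro f hf
    have hfc : f ∈ Subgroup.centralizer (L : Set G) := Subgroup.mem_centralizer_iff.2 fun l hl =>
      Subgroup.commute_of_normal_of_disjoint L _ inferInstance inferInstance hdis l f hl hf
    rw [hC, Subgroup.mem_bot] at hfc
    rw [hfc]; exact one_mem L
  · have h := Cfsg.Agent.S1320.result L
    rw [fStar_eq_top hL inferInstance, ← MonoidHom.range_eq_map, Subgroup.range_subtype] at h
    exact inf_eq_right.1 h

end CfsgLib.ONan48
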