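import Mathlib
import Cfsg.Agent.ONan48.Design

/-!
From an abelian normal subgroup of a point stabiliser to a family of elementary abelian subgroups.
-/

set_option autoImplicit false

namespace CfsgLib.ONan48

open MulAction
open scoped _root_.Classical

variable {G X : Type*} [Group G] [MulAction G X]

theorem trans_of_two (h2 : IsMultiplyPretransitive G X 2) (u w u' w' : X) (h : u ≠ w)
    (h' : u' ≠ w') : ∃ g : G, g • u = u' ∧ g • w = w' :=
  is_two_pretransitive_iff.1 h2 h h'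

theorem exists_fam [Finite G] (h2 : IsMultiplyPretransitive G X 2) (x : X) (N : Subgroup G)
    (hNle : N ≤ stabilizer G x) (hNnormal : ∀ g ∈ stabilizer G x, ∀ n ∈ N, g * n * g⁻¹ ∈ N)
    (hab : ∀ a ∈ N, ∀ b ∈ N, a * b = b * a)
    (hnsr : ∃ n ∈ N, n ≠ 1 ∧ ∃ y : X, y ≠ x ∧ n • y = y) : Nonempty (Fam G X) := by
  obtain ⟨n, hn, hn1, y, hyx, hny⟩ := hnsr
  obtain ⟨p, hp, hpd⟩ := Nat.exists_prime_and_dvd (fun h => hn1 (orderOf_eq_one_iff.1 h))
  obtain ⟨k, hk⟩ := hpd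
  have hord : orderOf (n ^ k) = p := by
    have hk0 : k ≠ 0 := by
      rintro rfl
      exact (orderOf_pos n).ne' (by rw [hk, mul_zero])
    rw [orderOf_pow' n hk0, hk, Nat.gcd_eq_right (dvd_mul_left k p),
      Nat.mul_div_cancel _ (Nat.pos_of_ne_zero hk0)]
  have htrans : ∀ u : X, ∃ g : G, g • x = u := by
    intro u
    by_cases hu : u = x
    · exact ⟨1, by rw [hu, one_smul]⟩
    obtain ⟨g, hg, -⟩ := trans_of_two h2 x u u x (Ne.symm hu) hu
    exact ⟨g, hg⟩
  choose s hs using htrans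
  let M : Subgroup G :=
    { carrier := {a | a ∈ N ∧ a ^ p = 1}
      one_mem' := ⟨one_mem _, one_pow _⟩
      mul_mem' := fun {a b} ha hb => ⟨mul_mem ha.1 hb.1, by
        rw [Commute.mul_pow (show Commute a b from hab a ha.1 b hb.1), ha.2, hb.2, one_mul]⟩
      inv_mem' := fun {a} ha => ⟨inv_mem ha.1, by rw [inv_pow, ha.2, inv_one]⟩ }
  have hM : ∀ g ∈ stabilizer G x, ∀ a ∈ M, g * a * g⁻¹ ∈ M := fun g hg a ha =>
    ⟨hNnormal g hg a ha.1, by rw [conj_pow, ha.2, mul_one, mul_inv_cancel]⟩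
  let Nf : X → Subgroup G := fun u => M.comap (MulAut.conj (s u)⁻¹).toMonoidHom
  have hmem : ∀ u a, a ∈ Nf u ↔ (s u)⁻¹ * a * s u ∈ M := fun u a => by simp [Nf]
  have hmemg : ∀ (u : X) (g : G), g • x = u → ∀ a, a ∈ Nf u ↔ g⁻¹ * a * g ∈ M := by
    intro u g hg a
    rw [hmem]
    constructor
    · intro h
      have h1 := hM (g⁻¹ * s u) (mem_stabilizer_iff.2
        (by rw [mul_smul, hs, inv_smul_eq_iff, hg])) _ h
      simpa [mul_assoc] using h1
    · intro h
      have h1 := hM ((s u)⁻¹ * g) (mem_stabilizer_iff.2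
        (by rw [mul_smul, hg, inv_smul_eq_iff, hs])) _ h
      simpa [mul_assoc] using h1
  refine ⟨⟨p, hp, Nf, ?_, ?_, ?_, ?_, ?_, trans_of_two h2⟩⟩
  · intro u a ha
    have h : ((s u)⁻¹ * a * s u) • x = x := hNle ((hmem u a).1 ha).1
    rwa [mul_smul, mul_smul, hs, inv_smul_eq_iff, hs] at h
  · intro g u a ha
    rw [hmemg (g • u) (g * s u) (by rw [mul_smul, hs])]
    simpa [mul_assoc] using (hmem u a).1 ha
  · intro u a ha b hb
    have h := congrArg (fun z => s u * z * (s u)⁻¹)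
      (hab _ ((hmem u a).1 ha).1 _ ((hmem u b).1 hb).1)
    simpa [mul_assoc] using h
  · intro u a ha
    have h := ((hmem u a).1 ha).2
    have h' : ((s u)⁻¹ * a * s u) ^ p = (s u)⁻¹ * a ^ p * s u := by
      have := conj_pow (i := p) (a := (s u)⁻¹) (b := a)
      rwa [inv_inv] at this
    rw [h'] at h
    have := congrArg (fun z => s u * z * (s u)⁻¹) h
    simpa [mul_assoc] using this
  · intro u w huw
    obtain ⟨g, hg, hgw⟩ := trans_of_two h2 x y u w (Ne.symm hyx) huw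
    refine ⟨g * n ^ k * g⁻¹, (hmemg u g hg _).2 ?_, ?_, ?_⟩
    · rw [show g⁻¹ * (g * n ^ k * g⁻¹) * g = n ^ k by group]
      exact ⟨pow_mem hn k, hord ▸ pow_orderOf_eq_one _⟩
    · intro h
      rw [conj_eq_one_iff] at h
      rw [h, orderOf_one] at hord
      exact hp.one_lt.ne hord
    · have hfix : n ^ k • y = y := mem_stabilizer_iff.1
        (pow_mem (mem_stabilizer_iff.2 hny) k)
      rw [← hgw, smul_smul, inv_mul_cancel_right, mul_smul, hfix]

/-- The hypotheses of Ito's theorem hold for the set stabiliser of a largest fixed point set. -/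
theorem exists_subgroup [Finite G] [Finite X] [FaithfulSMul G X]
    (h2 : IsMultiplyPretransitive G X 2) (x : X) (N : Subgroup G) (hNle : N ≤ stabilizer G x)
    (hNnormal : ∀ g ∈ stabilizer G x, ∀ n ∈ N, g * n * g⁻¹ ∈ N)
    (hab : ∀ a ∈ N, ∀ b ∈ N, a * b = b * a)
    (hnsr : ∃ n ∈ N, n ≠ 1 ∧ ∃ y : X, y ≠ x ∧ n • y = y) :
    ∃ H : Subgroup G, H.index = Nat.card X ∧ ¬ IsPretransitive H X ∧
      (∀ a : X, ∃ h : H, h • a ≠ a) ∧
      ∃ a : X, ∃ h : H, h ≠ 1 ∧ ∀ b ∈ orbit H a, h • b = b := by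
  obtain ⟨D⟩ := exists_fam h2 x N hNle hNnormal hab hnsr
  obtain ⟨n, hn, hn1, y, hyx, hny⟩ := hnsr
  obtain ⟨T⟩ := Fam.exists_top (D := D) (Ne.symm hyx)
  exact ⟨_, T.index_eq, T.not_pretransitive, T.exists_moved', T.exists_unfaithful⟩

end CfsgLib.ONan48
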